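import Mathlib
import Cfsg.Agent.H891.Gen.Defs

/-!
# Nielsen moves for `Lift` (helper42)
-/

set_option autoImplicit false

namespace Cfsg.Agent.H42.Cos

open Cfsg.Agent.H891.Gen Subgroup

universe u

variable {A : Type u} [Group A]

theorem lift_of_closure {N : Subgroup A} {x y x' y' : A} (hx : x⁻¹ * x' ∈ N) (hy : y⁻¹ * y' ∈ N)
    (h : N ≤ closure ({x', y'} : Set A)) : Lift N x y :=
  ⟨x⁻¹ * x', hx, y⁻¹ * y', hy, by rwa [mul_inv_cancel_left, mul_inv_cancel_left]⟩

/-- replace `y` by `x⁻¹ y` -/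
theorem lift_of_inv_mul {N : Subgroup A} [hN : N.Normal] {x y : A} (h : Lift N x (x⁻¹ * y)) : Lift N x y := by
  obtain ⟨s, hs, t, ht, h⟩ := h
  refine lift_of_closure (x' := x * s) (y' := (x * s) * (x⁻¹ * y * t)) (by rwa [inv_mul_cancel_left]) ?_ ?_
  · have e : y⁻¹ * ((x * s) * (x⁻¹ * y * t)) = ((x⁻¹ * y)⁻¹ * s * (x⁻¹ * y)) * t := by group
    rw [e]
    refine N.mul_mem ?_ ht
    have := hN.conj_mem s hs (x⁻¹ * y)⁻¹
    rwa [inv_inv] at this
  · refine h.trans ?_
    rw [closure_le]
    have h1 : x * s ∈ closure ({x * s, (x * s) * (x⁻¹ * y * t)} : Set A) := subset_closure (by simp)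
    have h2 : (x * s) * (x⁻¹ * y * t) ∈ closure ({x * s, (x * s) * (x⁻¹ * y * t)} : Set A) :=
      subset_closure (by simp)
    rintro z (rfl | hz)
    · exact h1
    · rw [Set.mem_singleton_iff] at hz
      subst hz
      have h3 := mul_mem (inv_mem h1) h2
      rwa [inv_mul_cancel_left] at h3

/-- if `A / N` is cyclic it is enough to treat the pairs with `x ∈ N`. -/
theorem lift_of_cyclic [Finite A] (N : Subgroup A) [hN : N.Normal] [hc : IsCyclic (A ⧸ N)]
    (h : ∀ x ∈ N, ∀ y, Lift N x y) (x y : A) : Lift N x y := by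
  obtain ⟨c, hc⟩ := hc.exists_generator
  have hex : ∀ z : A, ∃ a : ℕ, (QuotientGroup.mk z : A ⧸ N) = c ^ a := by
    intro z
    obtain ⟨a, ha⟩ := mem_powers_iff_mem_zpowers.2 (hc (QuotientGroup.mk z))
    exact ⟨a, ha.symm⟩
  have key : ∀ (k a b : ℕ), a + b ≤ k → ∀ x y : A, (QuotientGroup.mk x : A ⧸ N) = c ^ a →
      (QuotientGroup.mk y : A ⧸ N) = c ^ b → Lift N x y := by
    intro k
    induction k with
    | zero =>
      intro a b hab x y hx hy
      have ha : a = 0 := by omega
      rw [ha, pow_zero, QuotientGroup.eq_one_iff] at hx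
      exact h x hx y
    | succ k ih =>
      intro a b hab x y hx hy
      by_cases ha : a = 0
      · rw [ha, pow_zero, QuotientGroup.eq_one_iff] at hx
        exact h x hx y
      by_cases hb : b = 0
      · rw [hb, pow_zero, QuotientGroup.eq_one_iff] at hy
        exact (h y hy x).symm
      rcases Nat.le_total a b with hle | hle
      · apply lift_of_inv_mul
        refine ih a (b - a) (by omega) x _ hx ?_
        rw [QuotientGroup.mk_mul, QuotientGroup.mk_inv, hx, hy, inv_mul_eq_iff_eq_mul, ← pow_add]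
        congr 1
        omega
      · apply Lift.symm
        apply lift_of_inv_mul
        apply Lift.symm
        refine ih (a - b) b (by omega) _ y ?_ hy
        rw [QuotientGroup.mk_mul, QuotientGroup.mk_inv, hx, hy, inv_mul_eq_iff_eq_mul, ← pow_add]
        congr 1
        omega
  obtain ⟨a, ha⟩ := hex x
  obtain ⟨b, hb⟩ := hex y
  exact key (a + b) a b le_rfl x y ha hb

end Cfsg.Agent.H42.Cos
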