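import Cfsg.Agent.Omega.TitsIso.TitsSide

/-!
# Generation of the Tits group by pairs of elements of `²F₄(2)` (helper42)

`s = Z₇ Z₀ Z₄` (in the Tits group) and `h = y 7` (not in the Tits group) generate a subgroup of `²F₄(2)` which contains
the eight involutions `Z i` of an apartment.
-/

set_option autoImplicit false
set_option maxRecDepth 100000

namespace Cfsg.Agent.H42.Cos.TitsGen

open Cfsg.Agent.ChevalleyStructure.Tits.Pack Cfsg.Agent.ChevalleyStructure.Tits.Data
  Cfsg.Agent.ChevalleyStructure.Tits.Sat Cfsg.Agent.ChevalleyStructure.Tits.Final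
  Cfsg.Agent.ChevalleyStructure.Tits.Mat Cfsg.Agent.ChevalleyStructure.Tits.Order
  Cfsg.Agent.ChevalleyStructure.Tits.Main Cfsg.Agent.Omega.TitsIso.TitsSideRel
  Cfsg.Agent.Omega.TitsIso.TitsSide

/-- the letters `s`, `s⁻¹`, `h`, `h⁻¹` -/
def al : List (List ℕ) := [zz [7, 0, 4], zz [4, 0, 7], [7], [7, 7, 7]]

/-- words of the eight involutions in `s, s⁻¹, h, h⁻¹` -/
def wl : List (List ℕ) := [
  [3, 0, 2, 1, 2, 0, 2, 1, 2, 2],
  [1, 1, 2, 1, 1, 2, 1, 2, 2, 0, 3, 0, 0, 3, 0, 0],
  [1, 3, 3, 0, 2, 1, 2, 0, 2, 1, 3, 0],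
  [2, 2],
  [1, 3, 3, 0, 3, 3, 1, 2, 2, 0, 2, 2, 1, 2, 2],
  [1, 1, 3, 1, 3, 0, 2, 2, 1, 2, 0, 2, 0, 0],
  [2, 1, 2, 0, 3, 0, 0, 2, 2, 1, 1, 2, 1, 3, 0, 3],
  [3, 0, 3, 1, 2, 2, 0, 2, 1, 2]]

/-- the word of `Z i` -/
def w (i : ZMod 8) : List ℕ := (wl.getD i.val []).flatMap fun k => al.getD k []

theorem chk_w : ∀ i : ZMod 8, chk (w i, zw i) = true := by decide +kernel

theorem chk_s : chk (zz [4, 0, 7] ++ zz [7, 0, 4], []) = true := by decide +kernel

theorem chk_h : chk ([7, 7, 7] ++ [7], []) = true := by decide +kernel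

theorem w_lt : ∀ i : ZMod 8, ∀ k ∈ w i, k < 10 := by decide +kernel

theorem wl_lt : ∀ i : ZMod 8, ∀ k ∈ wl.getD i.val [], k < 4 := by decide +kernel

theorem al_lt : ∀ k < 4, ∀ i ∈ al.getD k [], i < 10 := by decide +kernel

/-- `s` -/
noncomputable def s : ChevalleyStructure.Tits.Order.H0 := ((zz [7, 0, 4]).map yH).prod

/-- `h` -/
noncomputable def h : ChevalleyStructure.Tits.Order.H0 := yH 7

theorem s_mem : s ∈ commutator ChevalleyStructure.Tits.Order.H0 := by
  unfold s
  rw [prod_zz]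
  apply Subgroup.list_prod_mem
  intro x hx
  rw [List.mem_map] at hx
  obtain ⟨i, _, rfl⟩ := hx
  exact ZH_mem_comm i

theorem h_not_mem : h ∉ commutator ChevalleyStructure.Tits.Order.H0 := by
  intro hh
  have : Finite ChevalleyStructure.Tits.Order.H0 :=
    Nat.finite_of_card_ne_zero (by rw [card_H0]; norm_num)
  obtain ⟨χ, hχ⟩ := exists_sign Sat_yH gen_yH card_H0
  have h1 : χ h = 1 := by
    have h2 := Abelianization.commutator_subset_ker χ hh
    exact h2
  rw [h, hχ] at h1
  exact absurd h1 (by decide)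

theorem al_mem (k : ℕ) (hk : k < 4) :
    ((al.getD k []).map yH).prod ∈ Subgroup.closure ({s, h} : Set ChevalleyStructure.Tits.Order.H0) := by
  have hs : s ∈ Subgroup.closure ({s, h} : Set ChevalleyStructure.Tits.Order.H0) := Subgroup.subset_closure (Or.inl rfl)
  have hh : h ∈ Subgroup.closure ({s, h} : Set ChevalleyStructure.Tits.Order.H0) := Subgroup.subset_closure (Or.inr rfl)
  have h4 : k = 0 ∨ k = 1 ∨ k = 2 ∨ k = 3 := by omega
  rcases h4 with rfl | rfl | rfl | rfl
  · exact hs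
  · have h1 := rel_H chk_s (by decide) (by decide)
    rw [List.map_append, List.prod_append, List.map_nil, List.prod_nil] at h1
    have h2 : ((zz [4, 0, 7]).map yH).prod = s⁻¹ := eq_inv_of_mul_eq_one_left h1
    show ((zz [4, 0, 7]).map yH).prod ∈ _
    rw [h2]
    exact inv_mem hs
  · show ([7].map yH).prod ∈ _
    rw [List.map_singleton, List.prod_singleton]
    exact hh
  · have h1 := rel_H chk_h (by decide) (by decide)
    rw [List.map_append, List.prod_append, List.map_nil, List.prod_nil] at h1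
    have h2 : (([7, 7, 7] : List ℕ).map yH).prod = h⁻¹ := eq_inv_of_mul_eq_one_left (by simpa [h] using h1)
    show (([7, 7, 7] : List ℕ).map yH).prod ∈ _
    rw [h2]
    exact inv_mem hh

theorem flat_mem (l : List ℕ) (hl : ∀ k ∈ l, k < 4) :
    ((l.flatMap fun k => al.getD k []).map yH).prod ∈
      Subgroup.closure ({s, h} : Set ChevalleyStructure.Tits.Order.H0) := by
  induction l with
  | nil => exact one_mem _
  | cons a l ih =>
    rw [List.flatMap_cons, List.map_append, List.prod_append]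
    exact mul_mem (al_mem a (hl a List.mem_cons_self)) (ih fun k hk => hl k (List.mem_cons_of_mem _ hk))

theorem ZH_mem_closure (i : ZMod 8) : ZH i ∈ Subgroup.closure ({s, h} : Set ChevalleyStructure.Tits.Order.H0) := by
  have h1 := rel_H (chk_w i) (w_lt i) (zw_lt i)
  have h2 : ZH i = ((w i).map yH).prod := h1.symm
  rw [h2]
  exact flat_mem _ (wl_lt i)

theorem comm_eq : commutator ChevalleyStructure.Tits.Order.H0 = Subgroup.closure (Set.range ZH) := by
  have h1 := congrArg (Subgroup.map (commutator ChevalleyStructure.Tits.Order.H0).subtype) closure_ZC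
  rw [MonoidHom.map_closure, ← MonoidHom.range_eq_map, Subgroup.range_subtype, ← Set.range_comp] at h1
  exact h1.symm

theorem comm_le : commutator ChevalleyStructure.Tits.Order.H0 ≤ Subgroup.closure ({s, h} : Set _) := by
  rw [comm_eq, Subgroup.closure_le]
  rintro _ ⟨i, rfl⟩
  exact ZH_mem_closure i

end Cfsg.Agent.H42.Cos.TitsGen
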