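import Cfsg.Agent.H42.Cos.TwF4

/-!
# `Cos2` for the large Ree groups: the row (helper42)
-/

set_option autoImplicit false

namespace Cfsg.Agent.H42.Cos

open Cfsg.Agent.H891.Gen Cfsg.Agent.H891.DG Cfsg.Agent.KFacts.TwF4 Subgroup
open Cfsg.Agent.SplitTwo Cfsg.Agent.SplitTwo.RootSysZ Cfsg.Agent.KFacts.TwF4.Arc Cfsg.Agent.KFacts.TwF4.Inv
open Cfsg.Agent.S2128

section full

universe u

variable {F : Type*} [Field F] [CharP F 2] [Finite F] {σ : F →+* F} {G : Type u} [Group G] [Finite G] (S : Full σ G)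

theorem lift_conj (hF : ∃ c : Fˣ, c ≠ 1) (hR : S.R.p = 2) (Φ : (F ≃+* F) → MulAut G)
    (hΦo : ∀ τ a t, Φ τ (S.o a t) = S.o a (τ t)) (hΦe : ∀ τ a p u, Φ τ (S.e a p u) = S.e a (τ p) (τ u))
    (hτ : ∀ (τ : F ≃+* F) x, τ (σ x) = σ (τ x)) {x : MulAut G} (hx : x ∈ (MulAut.conj : G →* MulAut G).range)
    (y : MulAut G) : Lift (MulAut.conj : G →* MulAut G).range x y := by
  obtain ⟨k, τ0, ho, he⟩ := AutNorm.aut_form S hF hR y
  obtain ⟨τ, hτ0⟩ : ∃ τ : F ≃+* F, ∀ x, τ x = τ0 x :=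
    ⟨RingEquiv.ofBijective τ0 (Finite.injective_iff_bijective.1 τ0.injective), fun _ => rfl⟩
  have h1 : y = MulAut.conj k * Φ τ := by
    refine aut_ext S ?_ ?_
    · intro a t
      rw [ho, MulAut.mul_apply, hΦo, MulAut.conj_apply, hτ0]
    · intro a p u
      rw [he, MulAut.mul_apply, hΦe, MulAut.conj_apply, hτ0, hτ0]
  obtain ⟨d, hd⟩ := IsCyclic.exists_generator (α := Fˣ)
  have hd1 : d ≠ 1 := by
    rintro rfl
    obtain ⟨c, hc⟩ := hF
    obtain ⟨n, hn⟩ := hd c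
    exact hc (by simpa using hn.symm)
  set h := S.h d d with hh
  set w : MulAut G := MulAut.conj S.rot * Φ τ with hw
  have hwo : ∀ a t, w (S.o a t) = S.o (a + 1) (τ t) := by
    intro a t
    rw [hw, MulAut.mul_apply, hΦo, MulAut.conj_apply, S.rot_o]
  have hwe : ∀ a p u, w (S.e a p u) = S.e (a + 1) (τ p) (τ u) := by
    intro a p u
    rw [hw, MulAut.mul_apply, hΦe, MulAut.conj_apply, S.rot_e]
  have hwc : ∀ g : G, w * MulAut.conj g * w⁻¹ = MulAut.conj (w g) := by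
    intro g
    ext v
    simp
  have hwio : ∀ a t, w⁻¹ (S.o a t) = S.o (a - 1) (τ.symm t) := by
    intro a t
    apply w.injective
    rw [MulAut.apply_inv_self, hwo, sub_add_cancel, τ.apply_symm_apply]
  have hwie : ∀ a p u, w⁻¹ (S.e a p u) = S.e (a - 1) (τ.symm p) (τ.symm u) := by
    intro a p u
    apply w.injective
    rw [MulAut.apply_inv_self, hwe, sub_add_cancel, τ.apply_symm_apply, τ.apply_symm_apply]
  have hcomm : MulAut.conj h * (w * MulAut.conj h * w⁻¹) = (w * MulAut.conj h * w⁻¹) * MulAut.conj h := by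
    refine aut_ext S ?_ ?_
    · intro a t
      simp only [MulAut.mul_apply, hwio, MulAut.conj_apply, hh, S.h_o, hwo, sub_add_cancel, map_mul,
        RingEquiv.apply_symm_apply]
      congr 1
      ring
    · intro a p u
      simp only [MulAut.mul_apply, hwie, MulAut.conj_apply, hh, S.h_e, hwe, sub_add_cancel, map_mul,
        RingEquiv.apply_symm_apply]
      congr 1 <;> ring
  refine lift_of_closure (x' := MulAut.conj h) (y' := MulAut.conj (S.e 1 1 0) * w) ?_ ?_ ?_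
  · exact mul_mem (inv_mem hx) ⟨h, rfl⟩
  · have h2 : y⁻¹ * (MulAut.conj (S.e 1 1 0) * w) =
        (Φ τ)⁻¹ * MulAut.conj (k⁻¹ * S.e 1 1 0 * S.rot) * Φ τ := by
      rw [h1, hw]
      simp only [map_mul, map_inv]
      group
    rw [h2]
    have h3 : (Φ τ)⁻¹ * MulAut.conj (k⁻¹ * S.e 1 1 0 * S.rot) * Φ τ =
        MulAut.conj ((Φ τ)⁻¹ (k⁻¹ * S.e 1 1 0 * S.rot)) := by
      ext v
      simp
    rw [h3]
    exact ⟨_, rfl⟩
  · set M : Subgroup (MulAut G) := closure {MulAut.conj h, MulAut.conj (S.e 1 1 0) * w} with hM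
    have key := mem_of' S.toSys S.sq (MulAut.conj : G →* MulAut G) (w := w) (h := h) (τ := τ) (hτ τ)
      (fun a p u => by rw [hwc, hwe]) (c := d) (d := d) (fun a p u => by rw [hh, S.h_e]) hd1 hd1 hd hcomm
      (M := M) (subset_closure (Or.inl rfl)) (subset_closure (Or.inr rfl))
    have htop : M.comap (MulAut.conj : G →* MulAut G) = ⊤ := by
      refine eq_top_of S ?_ ?_ ?_ ?_
      · intro x hx
        obtain ⟨p, u, rfl⟩ := (mem_X0 S).1 hx
        exact key.1 _ _ _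
      · intro x hx
        obtain ⟨t, rfl⟩ := (mem_X1 S).1 hx
        exact key.2 _ _
      · intro x hx
        obtain ⟨p, u, rfl⟩ := (mem_X8 S).1 hx
        exact key.1 _ _ _
      · intro x hx
        obtain ⟨t, rfl⟩ := (mem_X9 S).1 hx
        exact key.2 _ _
    rintro _ ⟨g, rfl⟩
    have : g ∈ M.comap (MulAut.conj : G →* MulAut G) := by rw [htop]; trivial
    exact this

/-- the field automorphisms generate the outer automorphism group, which is cyclic -/
theorem isCyclic_out (hF : ∃ c : Fˣ, c ≠ 1) (hR : S.R.p = 2) (Φ : (F ≃+* F) → MulAut G)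
    (hΦo : ∀ τ a t, Φ τ (S.o a t) = S.o a (τ t)) (hΦe : ∀ τ a p u, Φ τ (S.e a p u) = S.e a (τ p) (τ u)) :
    IsCyclic (MulAut G ⧸ (MulAut.conj : G →* MulAut G).range) := by
  let f : (F ≃+* F) →* (MulAut G ⧸ (MulAut.conj : G →* MulAut G).range) :=
    { toFun := fun τ => QuotientGroup.mk (Φ τ)
      map_one' := by
        have h1 : Φ 1 = 1 := by
          refine aut_ext S ?_ ?_
          · intro a t
            rw [hΦo]; rfl
          · intro a p u
            rw [hΦe]; rfl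
        rw [h1]; rfl
      map_mul' := by
        intro τ ρ
        have h1 : Φ (τ * ρ) = Φ τ * Φ ρ := by
          refine aut_ext S ?_ ?_
          · intro a t
            rw [MulAut.mul_apply, hΦo, hΦo, hΦo]; rfl
          · intro a p u
            rw [MulAut.mul_apply, hΦe, hΦe, hΦe]; rfl
        rw [h1]; rfl }
  have hf : Function.Surjective f := by
    intro x
    obtain ⟨α, rfl⟩ := QuotientGroup.mk_surjective x
    obtain ⟨k, τ0, ho, he⟩ := AutNorm.aut_form S hF hR α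
    obtain ⟨τ, hτ⟩ : ∃ τ : F ≃+* F, ∀ x, τ x = τ0 x :=
      ⟨RingEquiv.ofBijective τ0 (Finite.injective_iff_bijective.1 τ0.injective), fun _ => rfl⟩
    have h1 : α = MulAut.conj k * Φ τ := by
      refine aut_ext S ?_ ?_
      · intro a t
        rw [ho, MulAut.mul_apply, hΦo, MulAut.conj_apply, hτ]
      · intro a p u
        rw [he, MulAut.mul_apply, hΦe, MulAut.conj_apply, hτ, hτ]
    refine ⟨τ, ?_⟩
    show (QuotientGroup.mk (Φ τ) : MulAut G ⧸ (MulAut.conj : G →* MulAut G).range) = QuotientGroup.mk α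
    rw [h1, QuotientGroup.mk_mul]
    have h2 : (QuotientGroup.mk (MulAut.conj k) : MulAut G ⧸ (MulAut.conj : G →* MulAut G).range) = 1 :=
      (QuotientGroup.eq_one_iff _).2 ⟨k, rfl⟩
    rw [h2, one_mul]
  haveI : IsCyclic (F ≃+* F) := Cfsg.Agent.LieRecognition.FieldSemilinear.isCyclic_ringAut F
  exact isCyclic_of_surjective f hf

theorem cos2_full (hF : ∃ c : Fˣ, c ≠ 1) (hR : S.R.p = 2) (Φ : (F ≃+* F) → MulAut G)
    (hΦo : ∀ τ a t, Φ τ (S.o a t) = S.o a (τ t)) (hΦe : ∀ τ a p u, Φ τ (S.e a p u) = S.e a (τ p) (τ u))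
    (hτ : ∀ (τ : F ≃+* F) x, τ (σ x) = σ (τ x)) : Cos2 G := by
  haveI := isCyclic_out S hF hR Φ hΦo hΦe
  haveI : Finite (MulAut G) := inferInstance
  intro x y
  exact lift_of_cyclic _ (fun x hx y => lift_conj S hF hR Φ hΦo hΦe hτ hx y) x y

end full

/-- transport -/
theorem cos2_of_equiv {T T' : Type*} [Group T] [Group T'] (f : T ≃* T') (h : Cos2 T') : Cos2 T := by
  intro x y
  set Ψ : MulAut T ≃* MulAut T' := MulAut.congr f with hΨ
  obtain ⟨s, ⟨s', rfl⟩, t, ⟨t', rfl⟩, hst⟩ := h (Ψ x) (Ψ y)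
  have hc : ∀ g : T', MulAut.conj g = Ψ (MulAut.conj (f.symm g)) := by
    intro g
    ext v
    simp [hΨ, MulAut.congr]
  have hc' : ∀ g : T, Ψ (MulAut.conj g) = MulAut.conj (f g) := by
    intro g
    rw [hc, f.symm_apply_apply]
  refine ⟨MulAut.conj (f.symm s'), ⟨_, rfl⟩, MulAut.conj (f.symm t'), ⟨_, rfl⟩, ?_⟩
  have h1 : (closure {x * MulAut.conj (f.symm s'), y * MulAut.conj (f.symm t')}).map Ψ.toMonoidHom =
      closure {Ψ x * MulAut.conj s', Ψ y * MulAut.conj t'} := by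
    rw [MonoidHom.map_closure]
    congr 1
    rw [Set.image_insert_eq, Set.image_singleton]
    simp only [MulEquiv.toMonoidHom_eq_coe, MonoidHom.coe_coe, map_mul, ← hc]
  rw [← h1] at hst
  rintro _ ⟨g, rfl⟩
  have h2 : Ψ (MulAut.conj g) ∈ (closure {x * MulAut.conj (f.symm s'), y * MulAut.conj (f.symm t')}).map Ψ.toMonoidHom :=
    hst ⟨f g, (hc' g).symm⟩
  obtain ⟨z, hz, hz2⟩ := h2
  have h3 : z = MulAut.conj g := Ψ.injective hz2
  rw [← h3]
  exact hz

open Cfsg.Lie Cfsg.Agent.KFacts.TwF4.Inst Cfsg.Agent.ChevalleyStructure.TwF4.TwistedFix in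
/-- **The row `²F₄`.** -/
theorem cos2_twF4 {T : Type*} [Group T] (h : Cfsg.Lie.Iso2F4 T) : Cos2 T := by
  obtain ⟨K, _, _, m, hm, hK, ⟨f⟩⟩ := h
  refine cos2_of_equiv f ?_
  haveI : CharP K 2 := Cfsg.Agent.ChevalleyStructure.TwF4.Twisted.charP_two hK
  obtain ⟨φ, hφ⟩ := exists_rln hK
  have hF : ∃ c : Kˣ, c ≠ 1 := by
    have h1 : 1 < Nat.card Kˣ := by
      rw [Nat.card_units, Nat.card_eq_fintype_card, hK]
      have : 2 ^ 3 ≤ 2 ^ (2 * m + 1) := Nat.pow_le_pow_right (by norm_num) (by omega)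
      omega
    have : Nontrivial Kˣ := Finite.one_lt_card_iff_nontrivial.1 h1
    exact exists_ne 1
  exact cos2_full (full hK hφ) hF rfl (fun τ => fld τ (2 ^ m)) (fun τ a t => fld_ro τ hφ a t)
    (fun τ a p u => fld_re τ hφ a p u) (fun τ x => comm_phi τ hφ x)

end Cfsg.Agent.H42.Cos
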