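import Cfsg.Agent.H42.Cos.TitsGen
import Cfsg.Agent.H42.Cos.TwF4Row
import Cfsg.Agent.H440.TwoGen.Tits
import Cfsg.Agent.TitsK.Inst
import Cfsg.Agent.TitsK.SheetT

/-!
# `Cos2` for the Tits group (helper42)
-/

set_option autoImplicit false
set_option maxRecDepth 100000

namespace Cfsg.Agent.H42.Cos

open Cfsg.Agent.H891.Gen Cfsg.Agent.H891.DG Subgroup

section abstract

/-- any two cosets of the derived subgroup contain a pair generating at least the derived subgroup -/
def LiftAll (X : Type*) [Group X] : Prop := ∀ x y : X, Lift (commutator X) x y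

theorem lift_map {X Y : Type*} [Group X] [Group Y] (f : X →* Y) {N : Subgroup X} {x y : X} (h : Lift N x y) :
    Lift (N.map f) (f x) (f y) := by
  obtain ⟨s, hs, t, ht, h⟩ := h
  refine ⟨f s, ⟨s, hs, rfl⟩, f t, ⟨t, ht, rfl⟩, ?_⟩
  have h1 := Subgroup.map_mono (f := f) h
  rwa [MonoidHom.map_closure, Set.image_pair, map_mul, map_mul] at h1

theorem map_comm_equiv {X Y : Type*} [Group X] [Group Y] (e : X ≃* Y) :
    (commutator X).map (e : X →* Y) = commutator Y := by
  rw [commutator_def, commutator_def, Subgroup.map_commutator, ← MonoidHom.range_eq_map,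
    MonoidHom.range_eq_top.mpr e.surjective]

theorem lift_comm_equiv {X Y : Type*} [Group X] [Group Y] (e : X ≃* Y) (h : LiftAll X) : LiftAll Y := by
  intro x y
  have h1 := lift_map (e : X →* Y) (h (e.symm x) (e.symm y))
  rw [map_comm_equiv] at h1
  simpa using h1

theorem lift_comm_map {G K : Type*} [Group G] [Group K] (f : G →* K) (hf : Function.Injective f)
    (H : Subgroup G) (T : Subgroup K) (h : H.map f = T) (hT : LiftAll ↥T) : LiftAll ↥H := by
  subst h
  exact lift_comm_equiv (H.equivMapOfInjective f hf).symm hT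

theorem cos2_of_data {G : Type*} [Group G] [Finite G] (D : Cfsg.Agent.TitsK.TData G)
    (hD : LiftAll ↥D.H) (hT : (commutator ↥D.H).map D.H.subtype = D.T) :
    Cos2 ↥D.T := by
  have h1 : (MulAut.conj : ↥D.T →* MulAut ↥D.T).range = (commutator ↥D.H).map D.PhiT := by
    rw [D.range_conj]
    congr 1
    rw [← hT]
    exact Subgroup.comap_map_eq_self_of_injective D.H.subtype_injective _
  intro x y
  obtain ⟨a, rfl⟩ := D.PhiT_surjective x
  obtain ⟨b, rfl⟩ := D.PhiT_surjective y
  rw [h1]
  exact lift_map _ (hD a b)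

end abstract

section model

open Cfsg.Agent.ChevalleyStructure.Tits.Main Cfsg.Agent.ChevalleyStructure.Tits.Order
  Cfsg.Agent.ChevalleyStructure.Tits.Mat

theorem lift_H0 : LiftAll ChevalleyStructure.Tits.Order.H0 := by
  intro x y
  have hfin : Finite ChevalleyStructure.Tits.Order.H0 :=
    Nat.finite_of_card_ne_zero (by rw [card_H0]; norm_num)
  have h2 : (commutator ChevalleyStructure.Tits.Order.H0).index = 2 := H0_result.1
  have mm : ∀ a b : ChevalleyStructure.Tits.Order.H0, a * b ∈ commutator ChevalleyStructure.Tits.Order.H0 ↔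
      (a ∈ commutator ChevalleyStructure.Tits.Order.H0 ↔ b ∈ commutator ChevalleyStructure.Tits.Order.H0) :=
    fun a b => Subgroup.mul_mem_iff_of_index_two h2
  have hcyc : IsCyclic (ChevalleyStructure.Tits.Order.H0 ⧸ commutator ChevalleyStructure.Tits.Order.H0) := by
    have : Fact (Nat.Prime 2) := ⟨Nat.prime_two⟩
    exact isCyclic_of_prime_card (p := 2) h2
  refine lift_of_cyclic _ ?_ x y
  intro x hx y
  by_cases hy : y ∈ commutator ChevalleyStructure.Tits.Order.H0
  · obtain ⟨a, b, hab⟩ := Cfsg.Agent.H440.TwoGen.Tits.twoGen_model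
    refine lift_of_closure (x' := a) (y' := b) (mul_mem (inv_mem hx) a.2) (mul_mem (inv_mem hy) b.2) ?_
    have h3 := congrArg (Subgroup.map (commutator ChevalleyStructure.Tits.Order.H0).subtype) hab
    rw [MonoidHom.map_closure, ← MonoidHom.range_eq_map, Subgroup.range_subtype, Set.image_pair] at h3
    exact h3.ge
  · refine lift_of_closure (x' := TitsGen.s) (y' := TitsGen.h) (mul_mem (inv_mem hx) TitsGen.s_mem) ?_ TitsGen.comm_le
    rw [mm, inv_mem_iff]
    exact ⟨fun h => absurd h hy, fun h => absurd h TitsGen.h_not_mem⟩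

theorem lift_of_eq (K : Subgroup (GL I52 (ZMod 2))) (hK : K = ChevalleyStructure.Tits.Order.H0) :
    LiftAll ↥K := by
  subst hK
  exact lift_H0

end model

theorem lift_tw : LiftAll ↥(Cfsg.Lie.twistedF4 (ZMod 2) 1) := by
  exact lift_of_eq (Cfsg.Lie.twistedF4 (ZMod 2) 1) Cfsg.Agent.ChevalleyStructure.Tits.Main.T0_eq_H0

open Cfsg.Agent.TitsK in
theorem cos2_TT : Cos2 ↥tdata.T := by
  refine cos2_of_data tdata ?_ (map_comm_aux HT)
  exact lift_comm_map _ (Subgroup.subtype_injective _) HT _ map_HT lift_tw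

open Cfsg.Agent.TitsK in
theorem nonempty_equiv_tits {X : Type*} [Group X] (h : Cfsg.Lie.IsoTits X) : Nonempty (X ≃* ↥tdata.T) := by
  obtain ⟨e⟩ := h
  obtain ⟨e'⟩ := exists_equiv
  exact ⟨e.trans e'⟩

theorem cos2_of_nonempty {G : Type*} [Group G] (D : Cfsg.Agent.TitsK.TData G) {T : Type*} [Group T]
    (f : Nonempty (T ≃* ↥D.T)) (h : Cos2 ↥D.T) : Cos2 T := by
  obtain ⟨f⟩ := f
  exact cos2_of_equiv f h

/-- **The Tits group.** -/
theorem cos2_tits {T : Type*} [Group T] (h : Cfsg.Lie.IsoTits T) : Cos2 T :=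
  cos2_of_nonempty Cfsg.Agent.TitsK.tdata (nonempty_equiv_tits h) cos2_TT

end Cfsg.Agent.H42.Cos
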