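import Cfsg.Agent.H42.Cos.Nielsen
import Cfsg.Agent.H136.TwFour
import Cfsg.Agent.S2128
import Cfsg.Agent.H891.DG.Defs
import Cfsg.Agent.LieRecognition.FieldSemilinear

/-!
# `Cos2` for the large Ree groups (helper42)
-/

set_option autoImplicit false

namespace Cfsg.Agent.H42.Cos

open Cfsg.Agent.H891.Gen Cfsg.Agent.H891.DG Cfsg.Agent.KFacts.TwF4 Subgroup

section abstract

variable {F : Type*} [Field F] [CharP F 2] [Finite F] {σ : F →+* F} {G : Type*} [Group G] (S : Sys σ G)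

/-- the generation argument with a field automorphism -/
theorem mem_of' (hσ : ∀ x, σ (σ x) = x ^ 2) {Γ : Type*} [Group Γ] (ι : G →* Γ) {w : Γ} {h : G} {τ : F ≃+* F}
    (hτ : ∀ x, τ (σ x) = σ (τ x))
    (hw : ∀ a p u, w * ι (S.e a p u) * w⁻¹ = ι (S.e (a + 1) (τ p) (τ u))) {c d : Fˣ}
    (he : ∀ a p u, h * S.e a p u * h⁻¹ = S.e a ((chE σ a c d : F) * p) ((chE σ a c d : F) * σ (chE σ a c d : F) * u))
    (hc : c ≠ 1) (hd1 : d ≠ 1) (hd : ∀ x : Fˣ, x ∈ Subgroup.zpowers d)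
    (hcomm : ι h * (w * ι h * w⁻¹) = (w * ι h * w⁻¹) * ι h)
    {M : Subgroup Γ} (hM : ι h ∈ M) (huw : ι (S.e 1 1 0) * w ∈ M) :
    (∀ a p u, ι (S.e a p u) ∈ M) ∧ ∀ a t, ι (S.o a t) ∈ M := by
  set h₁ := w * ι h * w⁻¹ with hh₁
  set u := ι (S.e 1 1 0) with hu
  set c' : F := τ (c : F) with hc'
  have hc0 : c' ≠ 0 := by
    rw [hc', Ne, map_eq_zero_iff τ τ.injective]
    exact c.ne_zero
  have h1e : ∀ p v, h₁ * ι (S.e 1 p v) * h₁⁻¹ = ι (S.e 1 (c' * p) (c' * σ c' * v)) := by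
    intro p v
    have e0 : ι (S.e 1 p v) = w * ι (S.e 0 (τ.symm p) (τ.symm v)) * w⁻¹ := by
      rw [hw, zero_add, τ.apply_symm_apply, τ.apply_symm_apply]
    have e1 : h₁ * ι (S.e 1 p v) * h₁⁻¹ = w * ι (h * S.e 0 (τ.symm p) (τ.symm v) * h⁻¹) * w⁻¹ := by
      rw [e0, hh₁, map_mul, map_mul, map_inv]; group
    rw [e1, he, hw, chE_zero, zero_add, map_mul, map_mul, map_mul, τ.apply_symm_apply, τ.apply_symm_apply, hτ]
  have h2e : ∀ p v, h₁⁻¹ * ι (S.e 1 p v) * h₁ = ι (S.e 1 (c'⁻¹ * p) (c'⁻¹ * σ c'⁻¹ * v)) := by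
    intro p v
    have hσc : σ c' ≠ 0 := (map_ne_zero σ).2 hc0
    have e1 := h1e (c'⁻¹ * p) (c'⁻¹ * σ c'⁻¹ * v)
    have e2 : c' * (c'⁻¹ * p) = p := by rw [mul_inv_cancel_left₀ hc0]
    have e3 : c' * σ c' * (c'⁻¹ * σ c'⁻¹ * v) = v := by
      rw [map_inv₀]; field_simp
    rw [e2, e3] at e1
    rw [← e1]; group
  have he1 : ∀ p v, h * S.e 1 p v * h⁻¹ = S.e 1 ((d : F) * p) ((d : F) * σ (d : F) * v) := by
    intro p v
    rw [he, chE_one]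
  have he1' : ∀ p v, ι h * ι (S.e 1 p v) * (ι h)⁻¹ = ι (S.e 1 ((d : F) * p) ((d : F) * σ (d : F) * v)) := by
    intro p v
    rw [← he1, map_mul, map_mul, map_inv]
  -- `y = h₁⁻¹ u h₁ u⁻¹`
  set y := h₁⁻¹ * u * h₁ * u⁻¹ with hy
  obtain ⟨v1, hv1⟩ : ∃ v1, y = ι (S.e 1 (c'⁻¹ + 1) v1) := by
    rw [hy, hu, h2e, ← map_inv ι, H136.TwFour.e_inv, ← map_mul, S.e_mul, mul_one]
    exact ⟨_, rfl⟩
  have hm1 : h₁ * y ∈ M := by
    have h3 : h₁ * y = (u * w) * ι h * (u * w)⁻¹ := by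
      rw [hy, hh₁]; group
    rw [h3]
    exact M.mul_mem (M.mul_mem huw hM) (M.inv_mem huw)
  obtain ⟨v2, hv2⟩ : ∃ v2, ι h * y * (ι h)⁻¹ * y⁻¹ = ι (S.e 1 (((d : F) + 1) * (c'⁻¹ + 1)) v2) := by
    rw [hv1, he1', ← map_inv ι, H136.TwFour.e_inv, ← map_mul, S.e_mul]
    have e3 : (d : F) * (c'⁻¹ + 1) + (c'⁻¹ + 1) = ((d : F) + 1) * (c'⁻¹ + 1) := by ring
    rw [e3]
    exact ⟨_, rfl⟩
  obtain ⟨v3, hv3⟩ : ∃ v3, h₁ * (ι h * y * (ι h)⁻¹ * y⁻¹) * h₁⁻¹ =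
      ι (S.e 1 (c' * (((d : F) + 1) * (c'⁻¹ + 1))) v3) := by
    rw [hv2, h1e]
    exact ⟨_, rfl⟩
  have hzM : h₁ * (ι h * y * (ι h)⁻¹ * y⁻¹) * h₁⁻¹ ∈ M := by
    have h5 : h₁ * (ι h * y * (ι h)⁻¹ * y⁻¹) * h₁⁻¹ = ι h * (h₁ * y) * (ι h)⁻¹ * (h₁ * y)⁻¹ := by
      calc h₁ * (ι h * y * (ι h)⁻¹ * y⁻¹) * h₁⁻¹ = (h₁ * ι h) * y * (ι h)⁻¹ * y⁻¹ * h₁⁻¹ := by group
        _ = (ι h * h₁) * y * (ι h)⁻¹ * y⁻¹ * h₁⁻¹ := by rw [hcomm]
        _ = _ := by group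
    rw [h5]
    exact M.mul_mem (M.mul_mem (M.mul_mem hM hm1) (M.inv_mem hM)) (M.inv_mem hm1)
  rw [hv3] at hzM
  have hadd : ∀ x : F, x + 1 = 0 → x = 1 := by
    intro x hx
    have h1 := CharTwo.add_self_eq_zero (1 : F)
    linear_combination hx - h1
  have hne : c' * (((d : F) + 1) * (c'⁻¹ + 1)) ≠ 0 := by
    refine mul_ne_zero hc0 (mul_ne_zero ?_ ?_)
    · intro h0
      exact hd1 (Units.ext (hadd _ h0))
    · intro h0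
      have := inv_eq_one.1 (hadd _ h0)
      rw [hc', map_eq_one_iff τ τ.injective] at this
      exact hc (Units.ext this)
  have hX : ∀ p v, S.e 1 p v ∈ M.comap ι :=
    H136.TwFour.all_e S hσ he1 hd (M := M.comap ι) hM hne hzM
  have hwM : w ∈ M := by
    have h7 := M.mul_mem (M.inv_mem (hX 1 0)) huw
    rwa [hu, inv_mul_cancel_left] at h7
  have hE : ∀ a p v, ι (S.e a p v) ∈ M := by
    intro a
    refine Sys.ind8 (P := fun a => ∀ p v, ι (S.e a p v) ∈ M) 1 hX ?_ a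
    intro a ih p v
    have h8 := hw a (τ.symm p) (τ.symm v)
    rw [τ.apply_symm_apply, τ.apply_symm_apply] at h8
    rw [← h8]
    exact M.mul_mem (M.mul_mem hwM (ih _ _)) (M.inv_mem hwM)
  refine ⟨hE, ?_⟩
  intro a t
  have h8 := S.e_e1 a t 0 1 0
  rw [mul_one] at h8
  have h9 : S.o a t = (S.e (a + 1) 1 0 * S.e a t 0)⁻¹ * (S.e a t 0 * S.e (a + 1) 1 0) := by
    rw [h8]; group
  rw [h9]
  have h10 : S.e (a + 1) 1 0 ∈ M.comap ι := hE _ _ _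
  have h11 : S.e a t 0 ∈ M.comap ι := hE _ _ _
  exact (M.comap ι).mul_mem ((M.comap ι).inv_mem ((M.comap ι).mul_mem h10 h11)) ((M.comap ι).mul_mem h11 h10)

end abstract

end Cfsg.Agent.H42.Cos
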